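import Mathlib
import Cfsg.Agent.H902.Cross
import Cfsg.Agent.H700.DM.Defs

/-!
# S4907, task DM13: orders up to centres, different characteristics (helper140)

`cross_eq`: if `X(q)` is a classical simple group of order `M`, `Y(r^g)` a simple group of Lie type of another
characteristic of order `M'`, the `p`-parts of `M` and `M'` agree and `M' * z = M * z'`, with `z'` a divisor of the order of
the centre of the simply connected group of type `X` and `z` a divisor of the one of type `Y` up to a power of `r`, then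
`M' = M`.
-/

set_option autoImplicit false

namespace Cfsg.Agent.H140.DM

open Finset
open Cfsg.Agent.H902.Art
open Cfsg.Agent.H700.DM (IsCl)

/-- dominance for the numerator -/
theorem dom_num {X : Sh} {p f M : ℕ} (h : Real X p f M) (hcl : IsCl X) (hX : X ≠ .L 2) {r : ℕ} (hr : r.Prime)
    (hrp : r ≠ p) (h33 : ¬ (X = .U 3 ∧ p ^ f = 3 ∧ r = 2)) (h42 : ¬ (X = .U 4 ∧ p ^ f = 2 ∧ r = 3))
    (h22 : ¬ (X = .C 2 ∧ p ^ f = 3 ∧ r = 2)) :
    P r (num X (p ^ f)) ≤ (p ^ f) ^ NN X := by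
  have hq := h.q_ge
  have hrq := h.not_dvd_q hr hrp
  have hok := h.ok
  set q := p ^ f with hqdef
  cases X with
  | L n =>
    have hn : 2 ≤ n := hok.1
    have hn2 : n ≠ 2 := fun h => hX (by rw [h])
    exact PL_le hr hq hrq (by omega)
  | U n =>
    have hn : 3 ≤ n := hok.1
    refine PU_le hr hq hrq hn hok.2 ?_ ?_
    · rintro ⟨rfl, h2, h3⟩; exact h33 ⟨rfl, h2, h3⟩
    · rintro ⟨rfl, h2, h3⟩; exact h42 ⟨rfl, h2, h3⟩
  | C m =>
    have hm : 2 ≤ m := hok.1
    show P r (num (.C m) q) ≤ q ^ (m ^ 2)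
    rcases Nat.lt_or_ge m 3 with hm3 | hm3
    · have hm2 : m = 2 := by omega
      subst hm2
      have hq3 : 3 ≤ q := hok.2 rfl
      have h5 : num (.C 2) q = ∏ i ∈ range 2, (q ^ (2 * (i + 1)) - 1) := rfl
      rw [h5]
      show _ ≤ q ^ 4
      by_cases hr2 : r = 2
      · subst hr2
        have hodd : Odd q := Nat.not_even_iff_odd.1 fun h => hrq h.two_dvd
        have hq5 : 5 ≤ q := by
          rcases hodd with ⟨k, hk⟩
          by_contra hcon
          exact h22 ⟨rfl, by omega, rfl⟩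
        have h1 := PC_two (m := 2) hq3 hodd (by norm_num)
        have h6 : 8 * (q + 1) ^ 2 ≤ q ^ 4 := by
          obtain ⟨t, ht⟩ := Nat.exists_eq_add_of_le' hq5
          have e : (t + 5) ^ 4 = 8 * (t + 5 + 1) ^ 2 + (t ^ 4 + 20 * t ^ 3 + 142 * t ^ 2 + 404 * t + 337) := by ring
          rw [ht]
          omega
        have h7 : (4 * (q + 1)) ^ 2 = 2 * (8 * (q + 1) ^ 2) := by ring
        rw [h7] at h1
        omega
      · obtain ⟨e, he, -, h1 | ⟨hem, h1⟩⟩ := PC_odd hr hr2 hq hrq 2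
        · rw [h1.2]; exact Nat.one_le_pow _ _ (by omega)
        · apply le_of_sq_le
          refine h1.trans ?_
          have he2 : e = 1 ∨ e = 2 := by omega
          have hqq := Nat.mul_le_mul hq3 hq3
          rcases he2 with rfl | rfl
          · have h2 : 3 * (q + 1) ^ 4 ≤ q ^ 8 := by
              have h3 : 2 * (q + 1) ≤ q ^ 2 := by nlinarith
              have h4 : (2 * (q + 1)) ^ 4 ≤ (q ^ 2) ^ 4 := Nat.pow_le_pow_left h3 4
              have h6 : (2 * (q + 1)) ^ 4 = 16 * (q + 1) ^ 4 := by ring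
              have h7 : (q ^ 2) ^ 4 = q ^ 8 := by ring
              rw [h6, h7] at h4
              omega
            have h8 : ((q ^ 1 + 1) ^ 2) ^ (2 / 1) * 3 ^ (2 / 1 - 1) = 3 * (q + 1) ^ 4 := by norm_num; ring
            rw [h8]
            calc 3 * (q + 1) ^ 4 ≤ q ^ 8 := h2
              _ = (q ^ 4) ^ 2 := by ring
          · have h8 : ((q ^ 2 + 1) ^ 2) ^ (2 / 2) * 3 ^ (2 / 2 - 1) = (q ^ 2 + 1) ^ 2 := by norm_num
            rw [h8]
            apply Nat.pow_le_pow_left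
            have : q ^ 4 = q ^ 2 * q ^ 2 := by ring
            rw [this]
            nlinarith
    · refine ((PC_le hr hq hrq m).trans (Nat.pow_le_pow_right (by omega) ?_))
      nlinarith
  | D m =>
    have hm : 4 ≤ m := hok
    show P r (num (.D m) q) ≤ q ^ (m * (m - 1))
    have h1 : num (.D m) q ∣ ∏ i ∈ range m, (q ^ (2 * (i + 1)) - 1) := by
      obtain ⟨k, rfl⟩ := Nat.exists_eq_add_of_le' (show 1 ≤ m by omega)
      rw [Finset.prod_range_succ, mul_comm]
      exact mul_dvd_mul (pow_sub_one_dvd (Dvd.intro_left 2 rfl)) dvd_rfl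
    refine ((P_mono hr ?_ h1).trans ((PC_le hr hq hrq m).trans (Nat.pow_le_pow_right (by omega) ?_)))
    · exact Finset.prod_ne_zero_iff.2 fun i _ => sub_one_ne hq (by omega)
    · have : 3 ≤ m - 1 := by omega
      nlinarith
  | DD m =>
    have hm : 4 ≤ m := hok
    show P r (num (.DD m) q) ≤ q ^ (m * (m - 1))
    have h1 : num (.DD m) q ∣ ∏ i ∈ range m, (q ^ (2 * (i + 1)) - 1) := by
      obtain ⟨k, rfl⟩ := Nat.exists_eq_add_of_le' (show 1 ≤ m by omega)
      rw [Finset.prod_range_succ, mul_comm]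
      exact mul_dvd_mul (pow_add_one_dvd (by omega)) dvd_rfl
    refine ((P_mono hr ?_ h1).trans ((PC_le hr hq hrq m).trans (Nat.pow_le_pow_right (by omega) ?_)))
    · exact Finset.prod_ne_zero_iff.2 fun i _ => sub_one_ne hq (by omega)
    · have : 3 ≤ m - 1 := by omega
      nlinarith
  | G2 => exact hcl.elim
  | F4 => exact hcl.elim
  | E6 => exact hcl.elim
  | E7 => exact hcl.elim
  | E8 => exact hcl.elim
  | TE6 => exact hcl.elim
  | TD4 => exact hcl.elim
  | Sz => exact hcl.elim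
  | Ree => exact hcl.elim
  | TF4 => exact hcl.elim

/-- the exponent is at least three, except for `L₂` and the Suzuki groups -/
theorem NN_ge {X : Sh} {p f M : ℕ} (h : Real X p f M) (hX : X ≠ .L 2) (hS : p = 2 → X ≠ .Sz) : 3 ≤ NN X := by
  have hok := h.ok
  cases X with
  | L n =>
    have hn : 2 ≤ n := hok.1
    have hn2 : n ≠ 2 := fun h => hX (by rw [h])
    show 3 ≤ n * (n - 1) / 2
    rw [Nat.le_div_iff_mul_le (by norm_num)]
    have : 2 ≤ n - 1 := by omega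
    have h3 : 3 ≤ n := by omega
    nlinarith
  | U n =>
    have hn : 3 ≤ n := hok.1
    show 3 ≤ n * (n - 1) / 2
    rw [Nat.le_div_iff_mul_le (by norm_num)]
    have : 2 ≤ n - 1 := by omega
    nlinarith
  | C m => have hm : 2 ≤ m := hok.1; show 3 ≤ m ^ 2; nlinarith
  | D m => have hm : 4 ≤ m := hok; show 3 ≤ m * (m - 1); have : 1 ≤ m - 1 := by omega
           nlinarith
  | DD m => have hm : 4 ≤ m := hok; show 3 ≤ m * (m - 1); have : 1 ≤ m - 1 := by omega
            nlinarith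
  | G2 => show 3 ≤ 6; norm_num
  | F4 => show 3 ≤ 24; norm_num
  | E6 => show 3 ≤ 36; norm_num
  | E7 => show 3 ≤ 63; norm_num
  | E8 => show 3 ≤ 120; norm_num
  | TE6 => show 3 ≤ 36; norm_num
  | TD4 => show 3 ≤ 12; norm_num
  | Sz => exact absurd rfl (hS hok.1)
  | Ree => show 3 ≤ 3; norm_num
  | TF4 => show 3 ≤ 12; norm_num

/-- the data of the theorem -/
structure Dat (X Y : Sh) (p f M r g M' z z' : ℕ) : Prop where
  h : Real X p f M
  h' : Real Y r g M'
  hne : p ≠ r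
  z0 : z ≠ 0
  z0' : z' ≠ 0
  hz' : z' ∣ dd X (p ^ f)
  hzd : z ∣ dd Y (r ^ g) * P r z
  hP : P p M' = (p ^ f) ^ NN X
  hM : M' * z = M * z'

theorem dat_of {X Y : Sh} {p f M r g M' z z' : ℕ} (h : Real X p f M) (h' : Real Y r g M') (hne : p ≠ r)
    (hz' : z' ∣ dd X (p ^ f)) (hz : 0 < z) (hz2 : ∃ k, z ∣ dd Y (r ^ g) * r ^ k)
    (hP : M'.factorization p = M.factorization p) (hM : M' * z = M * z') : Dat X Y p f M r g M' z z' := by
  refine ⟨h, h', hne, hz.ne', ?_, hz', ?_, ?_, hM⟩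
  · rintro rfl
    exact h.dd_ne (Nat.eq_zero_of_zero_dvd hz')
  · obtain ⟨k, hk⟩ := hz2
    obtain ⟨c, hc⟩ := P_dvd r z
    have hrc : ¬ r ∣ c := by
      intro hd
      have h2 : ¬ r ^ (z.factorization r + 1) ∣ z := Nat.pow_succ_factorization_not_dvd hz.ne' h'.hp
      apply h2
      rw [pow_succ]
      conv_rhs => rw [hc]
      exact mul_dvd_mul dvd_rfl hd
    have hcz : c ∣ z := ⟨P r z, by rw [mul_comm]; exact hc⟩
    have hcop : Nat.Coprime c (r ^ k) := ((Nat.Prime.coprime_iff_not_dvd h'.hp).2 hrc).symm.pow_right k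
    have h3 : c ∣ dd Y (r ^ g) := hcop.dvd_of_dvd_mul_right (hcz.trans hk)
    conv_lhs => rw [hc, mul_comm]
    exact mul_dvd_mul h3 dvd_rfl
  · rw [P, hP]
    exact h.P_self

section dat

variable {X Y : Sh} {p f M r g M' z z' : ℕ}

/-- the `r`-parts -/
theorem Dat.r_eq (d : Dat X Y p f M r g M' z z') : (r ^ g) ^ NN Y * P r z = P r (M * z') := by
  rw [← d.hM, P_mul d.h'.M_ne d.z0, d.h'.P_self]

theorem Dat.r_le (d : Dat X Y p f M r g M' z z') : (r ^ g) ^ NN Y * P r z ≤ P r (num X (p ^ f)) := by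
  rw [d.r_eq]
  have hr := d.h'.hp
  have h1 : M * z' ∣ (p ^ f) ^ NN X * num X (p ^ f) := by
    rw [← d.h.eq, mul_comm]
    exact mul_dvd_mul d.hz' dvd_rfl
  have h2 := P_mono hr (Nat.mul_ne_zero (pow_ne_zero _ (by have := d.h.q_ge; omega)) d.h.num_ne) h1
  rw [P_mul (pow_ne_zero _ (by have := d.h.q_ge; omega)) d.h.num_ne, P_eq_one (a := (p ^ f) ^ NN X), one_mul] at h2
  · exact h2
  · intro hd
    exact d.h.not_dvd_q hr d.hne.symm (hr.dvd_of_dvd_pow hd)

/-- the size -/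
theorem Dat.size (d : Dat X Y p f M r g M' z z') : M * z' ≤ num Y (r ^ g) * ((r ^ g) ^ NN Y * P r z) := by
  have h1 : z ≤ dd Y (r ^ g) * P r z :=
    Nat.le_of_dvd (Nat.mul_pos (Nat.pos_of_ne_zero d.h'.dd_ne) (P_pos d.h'.hp)) d.hzd
  calc M * z' = M' * z := d.hM.symm
    _ ≤ M' * (dd Y (r ^ g) * P r z) := Nat.mul_le_mul_left _ h1
    _ = dd Y (r ^ g) * M' * P r z := by ring
    _ = num Y (r ^ g) * ((r ^ g) ^ NN Y * P r z) := by rw [d.h'.eq]; ring

theorem Dat.eq_of_eq (d : Dat X Y p f M r g M' z z') (h : z = z') : M' = M := by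
  have := d.hM
  rw [h] at this
  exact Nat.eq_of_mul_eq_mul_right (Nat.pos_of_ne_zero d.z0') this

theorem Dat.P_ne (d : Dat X Y p f M r g M' z z') {a b : ℕ} (ha : a ≠ 0) : (p ^ f) ^ a ≠ (r ^ g) ^ b := by
  intro h
  have h1 : p ∣ (p ^ f) ^ a := by
    rw [← pow_mul]
    exact dvd_pow_self p (Nat.mul_ne_zero (by have := d.h.hf; omega) ha)
  rw [h] at h1
  have h2 := d.h.hp.dvd_of_dvd_pow (d.h.hp.dvd_of_dvd_pow h1)
  exact d.hne ((Nat.prime_dvd_prime_iff_eq d.h.hp d.h'.hp).1 h2)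

/-- the `p`-part of the order of `L₂` -/
theorem Dat.p_le_L2 (d : Dat X (.L 2) p f M r g M' z z') : (p ^ f) ^ NN X ≤ r ^ g + 1 := by
  have hp := d.h.hp
  have hRp := d.h'.not_dvd_q hp d.hne
  have h1 : P p (dd (.L 2) (r ^ g)) * P p M' = P p (num (.L 2) (r ^ g)) := d.h'.P_other hp d.hne
  rw [d.hP, num_L2] at h1
  by_cases hp2 : p = 2
  · subst hp2
    have hodd : Odd (r ^ g) := Nat.not_even_iff_odd.1 fun h => hRp h.two_dvd
    have hR3 : 3 ≤ r ^ g := by
      have := d.h'.q_ge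
      rcases hodd with ⟨k, hk⟩
      omega
    have h2 : dd (.L 2) (r ^ g) = 2 := by
      show Nat.gcd 2 (r ^ g - 1) = 2
      rcases hodd with ⟨k, hk⟩
      apply Nat.gcd_eq_left
      exact ⟨k, by omega⟩
    have h3 : P 2 2 = 2 := by
      have := P_pow_self (r := 2) (k := 1) (a := 1) Nat.prime_two (by norm_num)
      simpa using this
    have h4 := P_two_sq_sub_one_le hR3 hodd
    rw [h2, h3] at h1
    omega
  · have h2 : P p ((r ^ g) ^ (2 * 1) - 1) ≤ (r ^ g) ^ 1 + 1 := P_sq_sub_one_le hp hp2 d.h'.q_ge le_rfl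
    rw [mul_one, pow_one, ← h1] at h2
    exact (Nat.le_mul_of_pos_left _ (P_pos hp)).trans h2

/-- from the bound for the numerator -/
theorem cube_of {Y : Sh} {r g M' : ℕ} (h' : Real Y r g M') (hY : Y ≠ .L 2) {a : ℕ} (ha : a ≤ 2 * num Y (r ^ g)) :
    a ^ 3 ≤ 8 * ((r ^ g) ^ NN Y) ^ 5 := by
  calc a ^ 3 ≤ (2 * num Y (r ^ g)) ^ 3 := Nat.pow_le_pow_left ha 3
    _ = 8 * (num Y (r ^ g)) ^ 3 := by ring
    _ ≤ 8 * ((r ^ g) ^ NN Y) ^ 5 := Nat.mul_le_mul_left _ (h'.num_cube hY)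

theorem fin_L2 : ∀ v ∈ List.range' 1 9, ∀ a ∈ (ents 2 v).filter (fun a => decide (a.1 ≠ .L 2)),
    ∀ Q ∈ List.range 264, 4 ≤ Q → Q % 2 = 1 → (Q * ((Q - 1) * (Q + 1))) % (val 2 a) = 0 → (val 2 a) % Q = 0 →
      2 * val 2 a = Q * ((Q - 1) * (Q + 1)) ∨ Q = 21 := by
  decide +kernel

theorem ne_21 {p f : ℕ} (hp : p.Prime) : p ^ f ≠ 21 := by
  intro h
  have h3 : 3 ∣ p ^ f := by rw [h]; norm_num
  have h7 : 7 ∣ p ^ f := by rw [h]; norm_num
  have e3 := (Nat.prime_dvd_prime_iff_eq Nat.prime_three hp).1 (Nat.prime_three.dvd_of_dvd_pow h3)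
  have e7 := (Nat.prime_dvd_prime_iff_eq (by norm_num : Nat.Prime 7) hp).1
    ((by norm_num : Nat.Prime 7).dvd_of_dvd_pow h7)
  omega

/-- the `r`-part, `X = L₂` -/
theorem Dat.W_L2 (d : Dat (.L 2) Y p f M r g M' z z') :
    (r ^ g) ^ NN Y * P r z ≤ z' * (p ^ f + 1) ∧ (r ≠ 2 → (r ^ g) ^ NN Y * P r z ≤ p ^ f + 1) := by
  obtain ⟨hQ4, hc⟩ := L2_eq d.h
  have hr := d.h'.hp
  have h1 := d.r_le
  rw [num_L2] at h1
  by_cases hr2 : r = 2
  · refine ⟨?_, fun h => absurd hr2 h⟩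
    subst hr2
    rw [d.r_eq]
    rcases hc with ⟨h2, -⟩ | ⟨h2, hodd, h3⟩
    · exact absurd h2 d.hne
    · have h4 : P 2 2 = 2 := by
        have := P_pow_self (r := 2) (k := 1) (a := 1) Nat.prime_two (by norm_num)
        simpa using this
      have h5 : P 2 (2 * M) = 2 * P 2 M := by rw [P_mul (by norm_num) d.h.M_ne, h4]
      have h6 : P 2 (2 * M) ≤ 2 * (p ^ f + 1) := by
        rw [h3, P_mul (by omega) (Nat.mul_ne_zero (by omega) (by omega)), P_two_of_odd hodd, one_mul,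
          ← P_sq_mul (by omega)]
        exact P_two_sq_sub_one_le (by omega) hodd
      have h7 : P 2 M ≤ p ^ f + 1 := by omega
      rw [P_mul d.h.M_ne d.z0', mul_comm]
      exact Nat.mul_le_mul (P_le d.z0') h7
  · have h2 : P r ((p ^ f) ^ (2 * 1) - 1) ≤ (p ^ f) ^ 1 + 1 := P_sq_sub_one_le hr hr2 d.h.q_ge le_rfl
    rw [mul_one, pow_one] at h2
    refine ⟨(h1.trans h2).trans ?_, fun _ => h1.trans h2⟩
    exact Nat.le_mul_of_pos_left _ (Nat.pos_of_ne_zero d.z0')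

theorem Dat.two_le (d : Dat (.L 2) Y p f M r g M' z z') : p ^ f * ((p ^ f - 1) * (p ^ f + 1)) ≤ 2 * M := by
  obtain ⟨hQ4, hc⟩ := L2_eq d.h
  rcases hc with ⟨-, h⟩ | ⟨-, -, h⟩ <;> omega

theorem Dat.caseA (d : Dat (.L 2) Y p f M r g M' z z') (hY : Y ≠ .L 2) : M' = M := by
  obtain ⟨hQ4, hc⟩ := L2_eq d.h
  have hr := d.h'.hp
  obtain ⟨hW1, hW2⟩ := d.W_L2
  have hs := d.size
  have h2M := d.two_le
  have hP := d.hP
  have hPM' : P r M' = (r ^ g) ^ NN Y := d.h'.P_self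
  have hB1 : (r ^ g) ^ NN Y ≤ (r ^ g) ^ NN Y * P r z := Nat.le_mul_of_pos_right _ (P_pos hr)
  have hz' : z' ≤ 2 := by
    have h1 : z' ∣ Nat.gcd 2 (p ^ f - 1) := d.hz'
    exact Nat.le_of_dvd (by norm_num) (h1.trans (Nat.gcd_dvd_left _ _))
  have hz'0 : 0 < z' := Nat.pos_of_ne_zero d.z0'
  have hz'2 : z' ∣ 2 := by
    have h1 : z' ∣ Nat.gcd 2 (p ^ f - 1) := d.hz'
    exact h1.trans (Nat.gcd_dvd_left _ _)
  set Q := p ^ f with hQ
  set B := (r ^ g) ^ NN Y with hB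
  -- `Q (Q - 1) ≤ 2 num`
  have hnum : Q * (Q - 1) ≤ 2 * num Y (r ^ g) := by
    have h1 : z' * (Q + 1) * (Q * (Q - 1)) ≤ z' * (Q + 1) * (2 * num Y (r ^ g)) := by
      calc z' * (Q + 1) * (Q * (Q - 1)) = z' * (Q * ((Q - 1) * (Q + 1))) := by ring
        _ ≤ z' * (2 * M) := Nat.mul_le_mul_left _ h2M
        _ = 2 * (M * z') := by ring
        _ ≤ 2 * (num Y (r ^ g) * (B * P r z)) := Nat.mul_le_mul_left _ hs
        _ ≤ 2 * (num Y (r ^ g) * (z' * (Q + 1))) := Nat.mul_le_mul_left _ (Nat.mul_le_mul_left _ hW1)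
        _ = _ := by ring
    exact Nat.le_of_mul_le_mul_left h1 (by positivity)
  have hcube := cube_of d.h' hY hnum
  rw [← hB] at hcube
  by_cases hr2 : r = 2
  · subst hr2
    rcases hc with ⟨h2, -⟩ | ⟨h2, hodd, h3⟩
    · exact absurd h2 d.hne
    have hB2 : B ≤ 2 * (Q + 1) := (hB1.trans hW1).trans (Nat.mul_le_mul_right _ hz')
    have hQ264 : Q < 264 := by
      by_contra hcon
      obtain ⟨t, ht⟩ := Nat.exists_eq_add_of_le' (show 264 ≤ Q by omega)
      have h4 : B ^ 5 ≤ (2 * (Q + 1)) ^ 5 := Nat.pow_le_pow_left hB2 5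
      rw [ht] at hcube h4
      have h5 : t + 264 - 1 = t + 263 := by omega
      rw [h5] at hcube
      have e1 : 8 * (2 * (t + 264 + 1)) ^ 5 + (t ^ 6 + 1325 * t ^ 5 + 702283 * t ^ 4 + 186131167 * t ^ 3 +
          24671607656 * t ^ 2 + 1309304148544 * t + 161573389568) = ((t + 264) * (t + 263)) ^ 3 := by ring
      omega
    have hv : g * NN Y < 10 := by
      have h4 : B = 2 ^ (g * NN Y) := by rw [hB, ← pow_mul]
      have h5 : 2 ^ (g * NN Y) < 2 ^ 10 := by rw [← h4]; norm_num; omega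
      exact (Nat.pow_lt_pow_iff_right (by norm_num)).1 h5
    have hm := mem_ents d.h' (v := g * NN Y) rfl
    have hval := val_eq d.h'
    have hdM : M' ∣ Q * ((Q - 1) * (Q + 1)) := by
      rw [← h3, mul_comm]
      have h4 : M' ∣ M * z' := ⟨z, d.hM.symm⟩
      exact h4.trans (mul_dvd_mul dvd_rfl hz'2)
    have hQM : Q ∣ M' := by
      have h4 := P_dvd p M'
      rw [hP] at h4
      have h5 : NN (.L 2) = 1 := rfl
      rwa [h5, pow_one] at h4
    have hv1 : 1 ≤ g * NN Y := Nat.mul_pos d.h'.hf (NN_pos d.h')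
    have hfin := fin_L2 (g * NN Y) (by rw [List.mem_range'_1]; omega) (Y, g)
      (by rw [List.mem_filter]; exact ⟨hm, decide_eq_true hY⟩) Q (List.mem_range.2 hQ264) hQ4
      (Nat.odd_iff.1 hodd)
    rw [hval] at hfin
    rcases hfin (Nat.mod_eq_zero_of_dvd hdM) (Nat.mod_eq_zero_of_dvd hQM) with h6 | h6
    · omega
    · exact absurd h6 (ne_21 d.h.hp)
  · exfalso
    have hB2 : B ≤ Q + 1 := hB1.trans (hW2 hr2)
    have hQ15 : Q < 15 := by
      by_contra hcon
      obtain ⟨t, ht⟩ := Nat.exists_eq_add_of_le' (show 15 ≤ Q by omega)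
      have h4 : B ^ 5 ≤ (Q + 1) ^ 5 := Nat.pow_le_pow_left hB2 5
      rw [ht] at hcube h4
      have h5 : t + 15 - 1 = t + 14 := by omega
      rw [h5] at hcube
      have e1 : 8 * (t + 15 + 1) ^ 5 + (t ^ 6 + 79 * t ^ 5 + 2513 * t ^ 4 + 40449 * t ^ 3 + 334450 * t ^ 2 +
          1215260 * t + 872392) = ((t + 15) * (t + 14)) ^ 3 := by ring
      omega
    have h3 : 3 ≤ NN Y := NN_ge d.h' hY fun h => absurd h hr2
    have h4 : 3 ≤ r ^ g := by
      have h5 : 3 ≤ r := by have := hr.two_le; omega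
      exact h5.trans (Nat.le_self_pow (by have := d.h'.hf; omega) r)
    have h5 : 27 ≤ B := by
      calc 27 = 3 ^ 3 := by norm_num
        _ ≤ (r ^ g) ^ 3 := Nat.pow_le_pow_left h4 3
        _ ≤ B := Nat.pow_le_pow_right (by omega) h3
    omega

theorem cubic_lt {a b : ℕ} (ha : 2 ≤ a) (h : a < b) : a * ((a - 1) * (a + 1)) < b * ((b - 1) * (b + 1)) :=
  Nat.mul_lt_mul_of_lt_of_le h (Nat.mul_le_mul (by omega) (by omega))
    (Nat.mul_pos (by omega) (by omega))

theorem cubic_inj {a b : ℕ} (ha : 2 ≤ a) (hb : 2 ≤ b) (h : a * ((a - 1) * (a + 1)) = b * ((b - 1) * (b + 1))) :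
    a = b := by
  rcases lt_trichotomy a b with h1 | h1 | h1
  · have := cubic_lt ha h1; omega
  · exact h1
  · have := cubic_lt hb h1; omega

theorem Dat.caseB (d : Dat (.L 2) (.L 2) p f M r g M' z z') : M' = M := by
  obtain ⟨hQ4, hc⟩ := L2_eq d.h
  obtain ⟨hR4, hc'⟩ := L2_eq d.h'
  have hr := d.h'.hp
  obtain ⟨hW1, hW2⟩ := d.W_L2
  have hA := d.p_le_L2
  have hne := d.P_ne (a := 1) (b := 1) one_ne_zero
  have h1 : NN (.L 2) = 1 := rfl
  rw [h1, pow_one] at hA hW1 hW2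
  rw [pow_one, pow_one] at hne
  have hzd := d.hzd
  have hM := d.hM
  have hz0 : 0 < z := Nat.pos_of_ne_zero d.z0
  have hz'0 : 0 < z' := Nat.pos_of_ne_zero d.z0'
  have hz'2 : z' ∣ 2 := by
    have h1 : z' ∣ Nat.gcd 2 (p ^ f - 1) := d.hz'
    exact h1.trans (Nat.gcd_dvd_left _ _)
  have hz'1 : z' ∣ p ^ f - 1 := by
    have h1 : z' ∣ Nat.gcd 2 (p ^ f - 1) := d.hz'
    exact h1.trans (Nat.gcd_dvd_right _ _)
  by_contra hcon
  have hzz : z ≠ z' := fun h => hcon (d.eq_of_eq h)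
  by_cases hr2 : r = 2
  · subst hr2
    rcases hc' with ⟨-, hM'⟩ | ⟨h, -⟩
    swap
    · exact h rfl
    rcases hc with ⟨h, -⟩ | ⟨hp2, hodd, h2M⟩
    · exact d.hne h
    set Q := p ^ f with hQ
    set R := 2 ^ g with hR
    have h4 : (Q - 2) * Q ≤ (R - 1) * (R + 1) := Nat.mul_le_mul (by omega) (by omega)
    have h5 : Q - 1 ≤ R := by omega
    have h6 : (Q * (Q - 1)) * (2 * z * (Q - 2)) ≤ (Q * (Q - 1)) * (z' * (Q + 1)) := by
      calc (Q * (Q - 1)) * (2 * z * (Q - 2)) = 2 * (((Q - 1) * ((Q - 2) * Q)) * z) := by ring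
        _ ≤ 2 * ((R * ((R - 1) * (R + 1))) * z) :=
          Nat.mul_le_mul_left _ (Nat.mul_le_mul_right _ (Nat.mul_le_mul h5 h4))
        _ = 2 * (M' * z) := by rw [hM']
        _ = 2 * M * z' := by rw [hM]; ring
        _ = (Q * (Q - 1)) * (z' * (Q + 1)) := by rw [h2M]; ring
    have h7 : 2 * z * (Q - 2) ≤ z' * (Q + 1) :=
      Nat.le_of_mul_le_mul_left h6 (Nat.mul_pos (by omega) (by omega))
    obtain ⟨t, ht⟩ := Nat.exists_eq_add_of_le' hQ4
    have ht2 : Q - 2 = t + 2 := by omega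
    rw [ht2, ht] at h7
    rcases (Nat.dvd_prime Nat.prime_two).1 hz'2 with h8 | h8
    · rw [h8] at h7
      have h9 : 2 ≤ z := by omega
      have h10 : 2 * 2 * (t + 2) ≤ 2 * z * (t + 2) := Nat.mul_le_mul_right _ (by omega)
      omega
    · rw [h8] at h7
      rcases Nat.lt_or_ge z 3 with h9 | h9
      · have h10 : z = 1 := by omega
        apply hne
        apply cubic_inj (by omega) (by omega)
        rw [← h2M, ← hM', ← mul_one M', ← h10, hM, h8, mul_comm]
      · have h10 : 2 * 3 * (t + 2) ≤ 2 * z * (t + 2) := Nat.mul_le_mul_right _ (by omega)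
        omega
  · rcases hc' with ⟨h, -⟩ | ⟨-, hodd', h2M'⟩
    · exact hr2 h
    have hW := hW2 hr2
    have hPz : P r z = 1 := by
      have h2 := P_pos (a := z) hr
      by_contra h3
      have h4 : r ^ g * 2 ≤ r ^ g * P r z := Nat.mul_le_mul_left _ (by omega)
      omega
    rw [hPz, mul_one] at hW hzd
    have hz2 : z ∣ 2 := by
      have h1 : z ∣ Nat.gcd 2 (r ^ g - 1) := hzd
      exact h1.trans (Nat.gcd_dvd_left _ _)
    obtain ⟨k, hk⟩ := hodd'
    have hQe : ¬ Odd (p ^ f) := by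
      rintro ⟨l, hl⟩
      omega
    rcases hc with ⟨-, hMe⟩ | ⟨-, h, -⟩
    swap
    · exact hQe h
    have hz'e : z' = 1 := by
      rcases (Nat.dvd_prime Nat.prime_two).1 hz'2 with h8 | h8
      · exact h8
      · exfalso
        rw [h8] at hz'1
        rw [Nat.not_odd_iff_even] at hQe
        obtain ⟨l, hl⟩ := hQe
        omega
    have hz : z = 2 := by
      rcases (Nat.dvd_prime Nat.prime_two).1 hz2 with h8 | h8
      · omega
      · exact h8
    apply hne
    apply cubic_inj (by omega) (by omega)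
    rw [← hMe, ← h2M', mul_comm 2 M', ← hz, hM, hz'e, mul_one]

theorem fin_C : ∀ a ∈ ents 2 3, a.1 = .L 2 ∨ val 2 a = 168 := by decide +kernel

theorem Dat.caseC (d : Dat X (.L 2) p f M r g M' z z') (hcl : IsCl X) (hX : X ≠ .L 2)
    (h33 : ¬ (X = .U 3 ∧ p ^ f = 3 ∧ r = 2)) (h42 : ¬ (X = .U 4 ∧ p ^ f = 2 ∧ r = 3))
    (h22 : ¬ (X = .C 2 ∧ p ^ f = 3 ∧ r = 2)) : M' = M := by
  obtain ⟨hR4, hc'⟩ := L2_eq d.h'
  have hp := d.h.hp
  have hr := d.h'.hp
  have hdom := dom_num d.h hcl hX hr d.hne.symm h33 h42 h22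
  have hrle := d.r_le.trans hdom
  have hA := d.p_le_L2
  have hN3 : 3 ≤ NN X := NN_ge d.h hX (fun _ h => by rw [h] at hcl; exact hcl)
  have hne := d.P_ne (a := NN X) (b := 1) (by omega)
  have h1 : NN (.L 2) = 1 := rfl
  rw [h1, pow_one] at hrle
  rw [pow_one] at hne
  have hQ2 := d.h.q_ge
  have hPz : 1 ≤ P r z := P_pos (a := z) hr
  have hRA : r ^ g ≤ (p ^ f) ^ NN X := (Nat.le_mul_of_pos_right _ hPz).trans hrle
  have hAR : (p ^ f) ^ NN X = r ^ g + 1 := by omega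
  -- the size
  have h2M' : r ^ g * ((r ^ g - 1) * (r ^ g + 1)) ≤ 2 * M' := by
    rcases hc' with ⟨-, h⟩ | ⟨-, -, h⟩ <;> omega
  have h3 : M' ≤ (p ^ f) ^ NN X * num X (p ^ f) := by
    calc M' ≤ M' * z := Nat.le_mul_of_pos_right _ (Nat.pos_of_ne_zero d.z0)
      _ = M * z' := d.hM
      _ ≤ M * dd X (p ^ f) := Nat.mul_le_mul_left _ (Nat.le_of_dvd (Nat.pos_of_ne_zero d.h.dd_ne) d.hz')
      _ = (p ^ f) ^ NN X * num X (p ^ f) := by rw [mul_comm, d.h.eq]
  set A := (p ^ f) ^ NN X with hAdef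
  have h4 : (A - 1) * (A - 2) ≤ 2 * num X (p ^ f) := by
    have h5 : A * ((A - 1) * (A - 2)) ≤ A * (2 * num X (p ^ f)) := by
      calc A * ((A - 1) * (A - 2)) = r ^ g * ((r ^ g - 1) * (r ^ g + 1)) := by
            have e1 : A - 1 = r ^ g := by omega
            have e2 : A - 2 = r ^ g - 1 := by omega
            rw [e1, e2, hAR]; ring
        _ ≤ 2 * M' := h2M'
        _ ≤ 2 * (A * num X (p ^ f)) := Nat.mul_le_mul_left _ h3
        _ = A * (2 * num X (p ^ f)) := by ring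
    exact Nat.le_of_mul_le_mul_left h5 (by omega)
  have hcube := cube_of d.h hX h4
  rw [← hAdef] at hcube
  have hA16 : A < 16 := by
    by_contra hcon
    obtain ⟨t, ht⟩ := Nat.exists_eq_add_of_le' (show 16 ≤ A by omega)
    rw [ht] at hcube
    have h5 : t + 16 - 1 = t + 15 := by omega
    have h6 : t + 16 - 2 = t + 14 := by omega
    rw [h5, h6] at hcube
    have e1 : 8 * (t + 16) ^ 5 + (t ^ 6 + 79 * t ^ 5 + 2513 * t ^ 4 + 40449 * t ^ 3 + 334450 * t ^ 2 +
          1215260 * t + 872392) = ((t + 15) * (t + 14)) ^ 3 := by ring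
    omega
  have hQ : p ^ f = 2 := by
    by_contra hcon
    have h5 : 3 ^ 3 ≤ A := (Nat.pow_le_pow_left (show 3 ≤ p ^ f by omega) 3).trans
      (Nat.pow_le_pow_right (by omega) hN3)
    omega
  have hN : NN X = 3 := by
    by_contra hcon
    have h5 : 2 ^ 4 ≤ A := by
      rw [hAdef, hQ]
      exact Nat.pow_le_pow_right (by norm_num) (by omega)
    omega
  have hp2 : p = 2 := by
    have h5 : p ∣ 2 := by rw [← hQ]; exact dvd_pow_self p (by have := d.h.hf; omega)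
    exact (Nat.prime_dvd_prime_iff_eq hp Nat.prime_two).1 h5
  have hf : f = 1 := by
    rw [hp2] at hQ
    exact Nat.pow_right_injective (le_refl 2) (by simpa using hQ)
  have hA8 : A = 8 := by rw [hAdef, hQ, hN]; norm_num
  have hR7 : r ^ g = 7 := by omega
  have hM' : M' = 168 := by
    rw [hR7] at hc'
    rcases hc' with ⟨h, -⟩ | ⟨-, -, h⟩
    · exfalso
      rw [h] at hR7
      have h5 : 2 ∣ 2 ^ g := dvd_pow_self 2 (by have := d.h'.hf; omega)
      omega
    · omega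
  have hMM : M = 168 := by
    have h5 := d.h
    rw [hp2] at h5
    have h6 := mem_ents h5 (v := 3) (by rw [hf, hN])
    rcases fin_C _ h6 with h7 | h7
    · exact absurd h7 hX
    · rw [val_eq h5] at h7
      exact h7
  rw [hM', hMM]

theorem fin_E3 : ∀ v ∈ List.range' 1 5, ∀ b ∈ ents 2 v, 6048 % val 2 b = 0 → val 2 b % 27 = 0 → False := by
  decide +kernel

theorem fin_E5 : ∀ v ∈ List.range' 1 7, ∀ b ∈ ents 2 v, 51840 % val 2 b = 0 → val 2 b % 81 = 0 →
    val 2 b = 25920 := by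
  decide +kernel

theorem fin_E4 : ∀ v ∈ List.range' 1 4, ∀ b ∈ ents 3 v, 25920 % val 3 b = 0 → val 3 b % 64 = 0 →
    val 3 b = 25920 := by
  decide +kernel

theorem fin_E6 : ∀ a ∈ ents 2 5, a.1 = .L 2 := by decide +kernel

theorem fin_E7 : ∀ a ∈ ents 3 4, a.1 = .L 2 ∨ val 3 a = 25920 := by decide +kernel

/-- finitely many candidates -/
theorem Dat.exc (d : Dat X Y p f M r g M' z z') {K e v : ℕ} (hK : M * z' ∣ K) (he : (p ^ f) ^ NN X = e)
    (hv : ¬ r ^ (v + 1) ∣ K) : g * NN Y ∈ List.range' 1 v ∧ (Y, g) ∈ ents r (g * NN Y) ∧ K % val r (Y, g) = 0 ∧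
      val r (Y, g) % e = 0 := by
  have h1 : 1 ≤ g * NN Y := Nat.mul_pos d.h'.hf (NN_pos d.h')
  have hM' : M' ∣ K := (Dvd.intro z d.hM).trans hK
  rw [val_eq d.h']
  refine ⟨?_, mem_ents d.h' rfl, Nat.mod_eq_zero_of_dvd hM', ?_⟩
  · rw [List.mem_range'_1]
    refine ⟨h1, ?_⟩
    by_contra hcon
    apply hv
    have h2 := d.h'.P_self
    have h3 : r ^ (g * NN Y) ∣ M' := by
      rw [pow_mul, ← h2]
      exact P_dvd r M'
    exact (pow_dvd_pow r (by omega)).trans (h3.trans hM')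
  · rw [← he, ← d.hP]
    exact Nat.mod_eq_zero_of_dvd (P_dvd p M')

/-- the value from the parameters -/
theorem val_of {X : Sh} {p f M q K : ℕ} (h : Real X p f M) (hq : p ^ f = q)
    (hK : q ^ NN X * num X q / dd X q = K) : M = K := by
  have h2 := val_eq h
  unfold Cfsg.Agent.H902.Art.val at h2
  dsimp only at h2
  rw [hq, hK] at h2
  exact h2.symm

theorem Dat.main (d : Dat X Y p f M r g M' z z') (hcl : IsCl X) : M' = M := by
  have hp := d.h.hp
  have hr := d.h'.hp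
  by_cases hX : X = .L 2
  · subst hX
    by_cases hY : Y = .L 2
    · subst hY
      exact d.caseB
    · exact d.caseA hY
  by_cases h33 : X = .U 3 ∧ p ^ f = 3 ∧ r = 2
  · exfalso
    obtain ⟨rfl, hq, rfl⟩ := h33
    have hM := val_of (K := 6048) d.h hq (by decide +kernel)
    have hz' : z' ∣ 1 := by
      have h1 := d.hz'
      rw [hq] at h1
      have h2 : dd (.U 3) 3 = 1 := by decide +kernel
      rwa [h2] at h1
    have h1 := d.exc (K := 6048) (e := 27) (v := 5) (by rw [hM, Nat.dvd_one.1 hz'])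
      (by rw [hq]; rfl) (by norm_num)
    exact fin_E3 _ h1.1 _ h1.2.1 h1.2.2.1 h1.2.2.2
  by_cases h42 : X = .U 4 ∧ p ^ f = 2 ∧ r = 3
  · obtain ⟨rfl, hq, rfl⟩ := h42
    have hM := val_of (K := 25920) d.h hq (by decide +kernel)
    have hz' : z' ∣ 1 := by
      have h1 := d.hz'
      rw [hq] at h1
      have h2 : dd (.U 4) 2 = 1 := by decide +kernel
      rwa [h2] at h1
    have h1 := d.exc (K := 25920) (e := 64) (v := 4) (by rw [hM, Nat.dvd_one.1 hz'])
      (by rw [hq]; rfl) (by norm_num)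
    have h2 := fin_E4 _ h1.1 _ h1.2.1 h1.2.2.1 h1.2.2.2
    rw [val_eq d.h'] at h2
    rw [hM, h2]
  by_cases h22 : X = .C 2 ∧ p ^ f = 3 ∧ r = 2
  · obtain ⟨rfl, hq, rfl⟩ := h22
    have hM := val_of (K := 25920) d.h hq (by decide +kernel)
    have hz' : z' ∣ 2 := by
      have h1 := d.hz'
      rw [hq] at h1
      have h2 : dd (.C 2) 3 = 2 := by decide +kernel
      rwa [h2] at h1
    have h1 := d.exc (K := 51840) (e := 81) (v := 7) (by
      rw [hM, show 51840 = 25920 * 2 by norm_num]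
      exact mul_dvd_mul dvd_rfl hz')
      (by rw [hq]; rfl) (by norm_num)
    have h2 := fin_E5 _ h1.1 _ h1.2.1 h1.2.2.1 h1.2.2.2
    rw [val_eq d.h'] at h2
    rw [hM, h2]
  by_cases hY : Y = .L 2
  · subst hY
    exact d.caseC hcl hX h33 h42 h22
  -- both different from `L₂`
  have hexp : (p ^ f) ^ NN X = p ^ (f * NN X) := by rw [pow_mul]
  by_cases h33' : Y = .U 3 ∧ r ^ g = 3 ∧ p = 2
  · exfalso
    obtain ⟨rfl, hq, rfl⟩ := h33'
    have hM := val_of (K := 6048) d.h' hq (by decide +kernel)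
    have h1 := d.hP
    rw [hexp, hM] at h1
    have h2 : P 2 6048 = 2 ^ 5 := by
      have : 6048 = 2 ^ 5 * 189 := by norm_num
      rw [this, P_pow_self Nat.prime_two (by norm_num)]
    rw [h2] at h1
    have h3 : f * NN X = 5 := (Nat.pow_right_injective (le_refl 2) h1).symm
    exact hX (fin_E6 _ (mem_ents d.h h3))
  by_cases h42' : Y = .U 4 ∧ r ^ g = 2 ∧ p = 3
  · obtain ⟨rfl, hq, rfl⟩ := h42'
    have hM := val_of (K := 25920) d.h' hq (by decide +kernel)
    have h1 := d.hP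
    rw [hexp, hM] at h1
    have h2 : P 3 25920 = 3 ^ 4 := by
      have : 25920 = 3 ^ 4 * 320 := by norm_num
      rw [this, P_pow_self Nat.prime_three (by norm_num)]
    rw [h2] at h1
    have h3 : f * NN X = 4 := (Nat.pow_right_injective (show 2 ≤ 3 by norm_num) h1).symm
    rcases fin_E7 _ (mem_ents d.h h3) with h4 | h4
    · exact absurd h4 hX
    · rw [val_eq d.h] at h4
      rw [hM, h4]
  exfalso
  have h1 : P p M' ≤ (r ^ g) ^ NN Y := d.h'.dom hY hp d.hne h33' h42'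
  rw [d.hP] at h1
  have h2 := d.r_le.trans (dom_num d.h hcl hX hr d.hne.symm h33 h42 h22)
  have h3 : (r ^ g) ^ NN Y ≤ (r ^ g) ^ NN Y * P r z := Nat.le_mul_of_pos_right _ (P_pos hr)
  exact d.P_ne (a := NN X) (b := NN Y) (by have := NN_pos d.h; omega) (le_antisymm h1 (h3.trans h2))

end dat

/-- **DM13**: different characteristics -/
theorem cross_eq {X Y : Sh} {p f M r g M' z z' : ℕ} (hX : IsCl X) (h : Real X p f M) (h' : Real Y r g M')
    (hne : p ≠ r) (hz' : z' ∣ dd X (p ^ f)) (hz : 0 < z) (hz2 : ∃ k, z ∣ dd Y (r ^ g) * r ^ k)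
    (hP : M'.factorization p = M.factorization p) (hM : M' * z = M * z') : M' = M :=
  (dat_of h h' hne hz' hz hz2 hP hM).main hX

end Cfsg.Agent.H140.DM
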